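import Cfsg.Agent.H284.EP.Crit

/-!
# Extremely primitive groups, own characteristic, socle of rank one: the abstract kills (helper375)

`B = G_a ∩ G_b` (Borel subgroup), `w ∈ G_a`, `T₀` (torus) `≤ B`, normalised by `w`, `y` a `p`-element with `y a = b`,
commuting with `T₀` and normalising `B`.

* `two_false` : `X` between `T₀` and `B`, `B ∩ B^w`, normalised by `y`, only the lines `B`, `B^w` through `a` contain `X`:
  contradiction (socle `T ^ k`, `k ≥ 2`);
-/

set_option autoImplicit false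
set_option linter.unusedSectionVars false

namespace Cfsg.Agent.H375.EPR

open MulAction Subgroup Cfsg.Agent.H284
open Cfsg.Agent.H284.EPA (lines linesD)

variable {G : Type*} [Group G] {Ω : Type*} [MulAction G Ω]

/-- the two point stabiliser is self-normalising in each of its point stabilisers -/
theorem norm_line [Finite G] [FaithfulSMul G Ω] (h : EPA G Ω) {a b : Ω} (hab : b ≠ a)
    (hB : stabilizer G a ⊓ stabilizer G b ≠ ⊥) {g : G} (hg : g ∈ stabilizer G a)
    (hn : cj g (stabilizer G a ⊓ stabilizer G b) = stabilizer G a ⊓ stabilizer G b) : g ∈ stabilizer G b := by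
  obtain ⟨x, rfl⟩ := h.exists_smul a b
  have hx : x ∉ stabilizer G a := fun e => hab e
  have hn' : ∀ k ∈ stabilizer G a ⊓ cj x (stabilizer G a), g * k * g⁻¹ ∈ stabilizer G a ⊓ cj x (stabilizer G a) := by
    intro k hk
    rw [← stab_smul] at hk ⊢
    rw [← hn]
    exact conj_mem_cj hk
  have h1 := (h.toEP a).norm hx (X := stabilizer G a ⊓ cj x (stabilizer G a)) le_rfl
    (fun m hm k hk => mul_mem (mul_mem hm hk) (inv_mem hm)) (by rw [← stab_smul]; exact hB) hg hn'
  rw [← stab_smul] at h1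
  exact h1

/-- an element normalising the line and fixing a point of it fixes all its points -/
theorem reg_line [Finite G] [FaithfulSMul G Ω] (h : EPA G Ω) {a b c : Ω} (hab : b ≠ a)
    (hB : stabilizer G a ⊓ stabilizer G b ≠ ⊥) (hc : c ∈ fixPts Ω (stabilizer G a ⊓ stabilizer G b)) {g : G}
    (hn : cj g (stabilizer G a ⊓ stabilizer G b) = stabilizer G a ⊓ stabilizer G b) (hg : g • c = c) :
    g ∈ stabilizer G a ⊓ stabilizer G b := by
  obtain ⟨d, hd, hdc⟩ : ∃ d, d ∈ fixPts Ω (stabilizer G a ⊓ stabilizer G b) ∧ d ≠ c := by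
    by_cases h1 : a = c
    · exact ⟨b, mem_fixPts.2 inf_le_right, fun e => hab (by rw [h1, e])⟩
    · exact ⟨a, mem_fixPts.2 inf_le_left, h1⟩
  have h2 := h.line_eq hab hdc.symm hc hd
  rw [← h2] at hB hn ⊢
  exact mem_inf.2 ⟨hg, norm_line h hdc hB hg hn⟩

/-- an element normalising the group of a line maps the line to itself -/
theorem smul_mem_line {M : Subgroup G} {g : G} (hn : cj g M = M) {c : Ω} (hc : c ∈ fixPts Ω M) : g • c ∈ fixPts Ω M := by
  have h1 := (smul_mem_fixPts (M := M) (c := c) (g := g)).2 hc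
  rwa [hn] at h1

/-- conjugate lines have the same size -/
theorem ncard_fix_cj [Finite Ω] (M : Subgroup G) (g : G) : (fixPts Ω (cj g M)).ncard = (fixPts Ω M).ncard := by
  symm
  refine Set.ncard_congr (fun c _ => g • c) ?_ ?_ ?_
  · intro c hc
    exact smul_mem_fixPts.2 hc
  · intro c d _ _ e
    exact smul_left_cancel g e
  · intro c hc
    refine ⟨g⁻¹ • c, ?_, smul_inv_smul g c⟩
    rw [← smul_mem_fixPts (g := g), smul_inv_smul]
    exact hc

/-- `|B-line| ≤` the number of lines through `a` containing `X` -/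
theorem line_le [Finite G] [Finite Ω] [FaithfulSMul G Ω] (h : EPA G Ω) {a b : Ω} (hab : b ≠ a) {w y : G}
    (hw : w ∈ stabilizer G a) (hwB : cj w (stabilizer G a ⊓ stabilizer G b) ≠ stabilizer G a ⊓ stabilizer G b)
    (hya : y • a = b) {X : Subgroup G} (hXB : X ≤ stabilizer G a ⊓ stabilizer G b)
    (hXw : X ≤ cj w (stabilizer G a ⊓ stabilizer G b)) (hyX : cj y X = X) :
    (fixPts Ω (stabilizer G a ⊓ stabilizer G b)).ncard ≤ (linesD X a).ncard := by
  have hwa : w • a = a := hw
  have h1 : cj w (stabilizer G a ⊓ stabilizer G b) = stabilizer G a ⊓ stabilizer G (w • b) := by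
    rw [cj_inf, ← stab_smul, ← stab_smul, hwa]
  have hne : w • b ≠ a := fun e => hab (smul_left_cancel w (e.trans hwa.symm))
  have h2 : cj w (stabilizer G a ⊓ stabilizer G b) ∈ lines G a := ⟨w • b, hne, h1⟩
  have h3 := h.line_bound h2 hXw (c := b) (hXB.trans inf_le_right) (by
    intro h4
    apply hwB
    rw [h1] at h4 ⊢
    exact (h.stab_eq hne hab h4).symm)
  rw [ncard_fix_cj] at h3
  refine h3.trans (le_of_eq ?_)
  have h4 := EPA.ncard_linesD (G := G) (Ω := Ω) X a y
  rwa [hyX, hya] at h4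

/-- **Socle `T ^ k`, `k ≥ 2`.** -/
theorem two_false [Finite G] [Finite Ω] [FaithfulSMul G Ω] (h : EPA G Ω) {a b : Ω} (hab : b ≠ a) {w y : G}
    (hB : stabilizer G a ⊓ stabilizer G b ≠ ⊥)
    (hw : w ∈ stabilizer G a) (hwB : cj w (stabilizer G a ⊓ stabilizer G b) ≠ stabilizer G a ⊓ stabilizer G b)
    (hya : y • a = b) (hyB : cj y (stabilizer G a ⊓ stabilizer G b) = stabilizer G a ⊓ stabilizer G b)
    {X : Subgroup G} (hXB : X ≤ stabilizer G a ⊓ stabilizer G b)
    (hXw : X ≤ cj w (stabilizer G a ⊓ stabilizer G b)) (hyX : cj y X = X)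
    (hr : ∀ M ∈ linesD X a, M = stabilizer G a ⊓ stabilizer G b ∨ M = cj w (stabilizer G a ⊓ stabilizer G b))
    {T₀ : Subgroup G} (hyT : ∀ t ∈ T₀, y * t = t * y) (hwT : ∀ t ∈ T₀, w⁻¹ * t * w ∈ T₀) {p : ℕ} (hyp : y ^ p = 1)
    (hK : ∀ g ∈ stabilizer G a, (∀ t ∈ T₀, g * t = t * g) → g ^ p = 1 → g = 1) : False := by
  have hwa : w • a = a := hw
  have h1 : cj w (stabilizer G a ⊓ stabilizer G b) = stabilizer G a ⊓ stabilizer G (w • b) := by
    rw [cj_inf, ← stab_smul, ← stab_smul, hwa]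
  have hne : w • b ≠ a := fun e => hab (smul_left_cancel w (e.trans hwa.symm))
  have hwb : w • b ≠ b := fun e => hwB (by rw [h1, e])
  have hs : (fixPts Ω (stabilizer G a ⊓ stabilizer G b)).ncard ≤ 2 := by
    refine (line_le h hab hw hwB hya hXB hXw hyX).trans ?_
    have h2 : linesD X a ⊆ {stabilizer G a ⊓ stabilizer G b, cj w (stabilizer G a ⊓ stabilizer G b)} := fun M hM => hr M hM
    exact (Set.ncard_le_ncard h2 (Set.toFinite _)).trans (Set.ncard_insert_le _ _ |>.trans (by rw [Set.ncard_singleton]))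
  have hlB : ∀ c, c ∈ fixPts Ω (stabilizer G a ⊓ stabilizer G b) → c = a ∨ c = b := by
    intro c hc
    by_contra hcon
    push Not at hcon
    have h2 : ({a, b, c} : Set Ω) ⊆ fixPts Ω (stabilizer G a ⊓ stabilizer G b) := by
      rintro d (rfl | rfl | rfl)
      · exact mem_fixPts.2 inf_le_left
      · exact mem_fixPts.2 inf_le_right
      · exact hc
    have h3 := Set.ncard_le_ncard h2 (Set.toFinite _)
    rw [Set.ncard_eq_three.2 ⟨a, b, c, hab.symm, hcon.1.symm, hcon.2.symm, rfl⟩] at h3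
    omega
  have hlw : ∀ c, c ∈ fixPts Ω (cj w (stabilizer G a ⊓ stabilizer G b)) → c = a ∨ c = w • b := by
    intro c hc
    have h2 : w⁻¹ • c ∈ fixPts Ω (stabilizer G a ⊓ stabilizer G b) := by
      rw [← smul_mem_fixPts (g := w), smul_inv_smul]
      exact hc
    rcases hlB _ h2 with h3 | h3
    · left
      rw [← hwa, ← h3, smul_inv_smul]
    · right
      rw [← h3, smul_inv_smul]
  have hX : ∀ c, X ≤ stabilizer G c → c = a ∨ c = b ∨ c = w • b := by
    intro c hc
    by_cases hca : c = a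
    · exact Or.inl hca
    · have h2 : stabilizer G a ⊓ stabilizer G c ∈ linesD X a := ⟨⟨c, hca, rfl⟩, le_inf (hXB.trans inf_le_left) hc⟩
      rcases hr _ h2 with h3 | h3
      · rcases hlB c (by rw [mem_fixPts, ← h3]; exact inf_le_right) with h4 | h4
        · exact Or.inl h4
        · exact Or.inr (Or.inl h4)
      · rcases hlw c (by rw [mem_fixPts, ← h3]; exact inf_le_right) with h4 | h4
        · exact Or.inl h4
        · exact Or.inr (Or.inr h4)
  have hyb : y • b = a := by
    rcases hlB _ (smul_mem_line hyB (mem_fixPts.2 (inf_le_right : stabilizer G a ⊓ stabilizer G b ≤ stabilizer G b))) with h2 | h2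
    · exact h2
    · exact absurd (smul_left_cancel y (h2.trans hya.symm)) hab
  have hyw : y • (w • b) = w • b := by
    have h2 : X ≤ stabilizer G (w • b) := by
      have := hXw
      rw [h1] at this
      exact this.trans inf_le_right
    have h3 : X ≤ stabilizer G (y • (w • b)) := by
      have := smul_mem_line (Ω := Ω) hyX (show w • b ∈ fixPts Ω X from h2)
      exact this
    rcases hX _ h3 with h4 | h4 | h4
    · exact absurd (smul_left_cancel y (h4.trans hyb.symm)) hwb
    · exact absurd (smul_left_cancel y (h4.trans hya.symm)) hne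
    · exact h4
  -- `y' = w y w⁻¹`
  have hy'a : (w * y * w⁻¹) • a = w • b := by
    have : w⁻¹ • a = a := by rw [inv_smul_eq_iff]; exact hwa.symm
    rw [mul_smul, mul_smul, this, hya]
  have hy'T : ∀ t ∈ T₀, (w * y * w⁻¹) * t = t * (w * y * w⁻¹) := by
    intro t ht
    have h2 := hyT _ (hwT t ht)
    calc (w * y * w⁻¹) * t = w * (y * (w⁻¹ * t * w)) * w⁻¹ := by group
      _ = w * ((w⁻¹ * t * w) * y) * w⁻¹ := by rw [h2]
      _ = _ := by group
  have hc := hK ((w * y * w⁻¹)⁻¹ * y * (w * y * w⁻¹)) (by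
    rw [mem_stabilizer_iff, mul_smul, mul_smul, hy'a, hyw, ← hy'a, inv_smul_smul]) (by
    intro t ht
    have h2 := hy'T t ht
    have h3 := hyT t ht
    have h4 : (w * y * w⁻¹)⁻¹ * t = t * (w * y * w⁻¹)⁻¹ := by
      rw [inv_mul_eq_iff_eq_mul, ← mul_assoc, h2, mul_inv_cancel_right]
    calc (w * y * w⁻¹)⁻¹ * y * (w * y * w⁻¹) * t = (w * y * w⁻¹)⁻¹ * (y * ((w * y * w⁻¹) * t)) := by group
      _ = (w * y * w⁻¹)⁻¹ * (y * t * (w * y * w⁻¹)) := by rw [h2]; group
      _ = ((w * y * w⁻¹)⁻¹ * t) * (y * (w * y * w⁻¹)) := by rw [h3]; group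
      _ = _ := by rw [h4]; group) (by
    have h2 : (w * y * w⁻¹)⁻¹ * y * (w * y * w⁻¹) = (w * y * w⁻¹)⁻¹ * y * (w * y * w⁻¹)⁻¹⁻¹ := by rw [inv_inv]
    rw [h2, conj_pow, hyp]
    group)
  have hy1 : y = 1 := by
    have h2 : (w * y * w⁻¹) * ((w * y * w⁻¹)⁻¹ * y * (w * y * w⁻¹)) * (w * y * w⁻¹)⁻¹ = y := by group
    rw [hc] at h2
    rw [← h2]
    group
  apply hab
  rw [← hya, hy1, one_smul]

end Cfsg.Agent.H375.EPR
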