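import Cfsg.Agent.H470.EPO.R1
import Cfsg.Agent.ClassicalGeometry.PSL2Klein
import Cfsg.Agent.ClassicalGeometry.SLTwoFour

/-!
# `PSL₂(F)` : Borel subgroup, torus, the rank one data `R1` (helper375)
-/

set_option autoImplicit false
set_option linter.unusedSectionVars false

namespace Cfsg.Agent.H375.EPR.LTwo

open Matrix Cfsg.Agent.H284 Cfsg.Agent.H470.EPO
open Cfsg.Agent.ClassicalGeometry.SLTwoFour (w ext2 det2 mul00 mul01 mul10 mul11 w00 w01 w10 w11 neg_ij one00 one01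
  one10 one11 w_mul_self)
open Cfsg.Agent.ClassicalGeometry.PSL2Klein (mk mk_eq_mk mk_eq_one mk_neg)

variable {F : Type*} [Field F]

local notation "SL2" => Matrix.SpecialLinearGroup (Fin 2)
local notation "PSL2" => Matrix.ProjectiveSpecialLinearGroup (Fin 2)

theorem mk_mul (x y : SL2 F) : mk (x * y) = mk x * mk y := rfl

theorem mk_inv (x : SL2 F) : mk x⁻¹ = (mk x)⁻¹ := rfl

theorem mk_surj (g : PSL2 F) : ∃ x : SL2 F, mk x = g := QuotientGroup.mk_surjective g

theorem inv00 (x : SL2 F) : x⁻¹ 0 0 = x 1 1 := by rw [Matrix.SpecialLinearGroup.SL2_inv_expl]; rfl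
theorem inv01 (x : SL2 F) : x⁻¹ 0 1 = - x 0 1 := by rw [Matrix.SpecialLinearGroup.SL2_inv_expl]; rfl
theorem inv10 (x : SL2 F) : x⁻¹ 1 0 = - x 1 0 := by rw [Matrix.SpecialLinearGroup.SL2_inv_expl]; rfl
theorem inv11 (x : SL2 F) : x⁻¹ 1 1 = x 0 0 := by rw [Matrix.SpecialLinearGroup.SL2_inv_expl]; rfl

/-- unipotent -/
def uS (b : F) : SL2 F := ⟨!![1, b; 0, 1], by simp⟩

/-- semisimple -/
def tS (a : Fˣ) : SL2 F := ⟨!![(a : F), 0; 0, ((a⁻¹ : Fˣ) : F)], by simp⟩

@[simp] theorem uS00 (b : F) : uS b 0 0 = 1 := rfl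
@[simp] theorem uS01 (b : F) : uS b 0 1 = b := rfl
@[simp] theorem uS10 (b : F) : uS b 1 0 = 0 := rfl
@[simp] theorem uS11 (b : F) : uS b 1 1 = 1 := rfl
@[simp] theorem tS00 (a : Fˣ) : tS a 0 0 = a := rfl
@[simp] theorem tS01 (a : Fˣ) : tS a 0 1 = 0 := rfl
@[simp] theorem tS10 (a : Fˣ) : tS a 1 0 = 0 := rfl
@[simp] theorem tS11 (a : Fˣ) : tS a 1 1 = ((a⁻¹ : Fˣ) : F) := rfl

/-- `b ↦ u(b)` -/
def uH (F : Type*) [Field F] : Multiplicative F →* PSL2 F where
  toFun b := mk (uS b.toAdd)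
  map_one' := by
    rw [mk_eq_one]
    left
    apply ext2 <;> simp
  map_mul' a b := by
    rw [← mk_mul]
    congr 1
    apply ext2
    · rw [mul00]; simp
    · rw [mul01]; simp [add_comm]
    · rw [mul10]; simp
    · rw [mul11]; simp

/-- `a ↦ t(a)` -/
def tH (F : Type*) [Field F] : Fˣ →* PSL2 F where
  toFun a := mk (tS a)
  map_one' := by
    rw [mk_eq_one]
    left
    apply ext2 <;> simp
  map_mul' a b := by
    rw [← mk_mul]
    congr 1
    apply ext2
    · rw [mul00]; simp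
    · rw [mul01]; simp
    · rw [mul10]; simp
    · rw [mul11]; simp [mul_comm]

/-- the element `u(b)` -/
abbrev u (b : F) : PSL2 F := mk (uS b)

/-- the element `t(a)` -/
abbrev t (a : Fˣ) : PSL2 F := mk (tS a)

/-- the Weyl element -/
abbrev wP (F : Type*) [Field F] : PSL2 F := mk (w : SL2 F)

theorem u_add (a b : F) : u (a + b) = u a * u b := (uH F).map_mul (Multiplicative.ofAdd a) (Multiplicative.ofAdd b)

theorem u_zero : u (0 : F) = 1 := (uH F).map_one

theorem u_neg (a : F) : u (-a) = (u a)⁻¹ := (uH F).map_inv (Multiplicative.ofAdd a)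

theorem t_mul (a b : Fˣ) : t (a * b) = t a * t b := (tH F).map_mul a b

theorem t_one : t (1 : Fˣ) = 1 := (tH F).map_one

theorem u_inj {a b : F} (h : u a = u b) : a = b := by
  rcases mk_eq_mk.1 h with h1 | h1
  · have h2 := congrArg (fun x : SL2 F => x 0 1) h1
    exact h2
  · have h2 := congrArg (fun x : SL2 F => x 0 0) h1
    have h3 := congrArg (fun x : SL2 F => x 0 1) h1
    simp only [neg_ij, uS00, uS01] at h2 h3
    -- `1 = -1`
    have h4 : (2 : F) = 0 := by linear_combination h2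
    linear_combination h3 - b * h4

/-- the Borel subgroup -/
def B (F : Type*) [Field F] : Subgroup (PSL2 F) :=
  ({ carrier := {x : SL2 F | x 1 0 = 0}
     one_mem' := one10
     mul_mem' := by
      intro x y hx hy
      change (x * y) 1 0 = 0
      rw [mul10, show x 1 0 = 0 from hx, show y 1 0 = 0 from hy]
      ring
     inv_mem' := by
      intro x hx
      change x⁻¹ 1 0 = 0
      rw [inv10, show x 1 0 = 0 from hx, neg_zero] } : Subgroup (SL2 F)).map (QuotientGroup.mk' _)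

theorem mem_B {x : SL2 F} : mk x ∈ B F ↔ x 1 0 = 0 := by
  constructor
  · rintro ⟨y, hy, hyx⟩
    have hyx' : mk y = mk x := hyx
    have hy' : y 1 0 = 0 := hy
    rcases mk_eq_mk.1 hyx' with h | h
    · rw [← h]; exact hy'
    · rw [h, neg_ij, neg_eq_zero] at hy'
      exact hy'
  · intro h
    exact ⟨x, h, rfl⟩

/-- the unipotent radical -/
def U (F : Type*) [Field F] : Subgroup (PSL2 F) := (uH F).range

theorem mem_U {g : PSL2 F} : g ∈ U F ↔ ∃ b : F, u b = g := by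
  constructor
  · rintro ⟨b, rfl⟩
    exact ⟨b.toAdd, rfl⟩
  · rintro ⟨b, rfl⟩
    exact ⟨Multiplicative.ofAdd b, rfl⟩

theorem wP_sq : wP F * wP F = 1 := by
  rw [← mk_mul, w_mul_self, mk_eq_one]
  exact Or.inr rfl

theorem wP_inv : (wP F)⁻¹ = wP F := inv_eq_of_mul_eq_one_right wP_sq

theorem mem_cjw {x : SL2 F} : mk x ∈ cj (wP F) (B F) ↔ x 0 1 = 0 := by
  rw [mem_cj, ← mk_inv, ← mk_mul, ← mk_mul, mem_B]
  simp only [mul10, mul11, inv10, inv11, w10, w00, w11]
  constructor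
  · intro h
    linear_combination -h
  · intro h
    linear_combination -h

theorem conj_u (x : SL2 F) (b : F) : (x * uS b * x⁻¹) 1 0 = - (x 1 0) ^ 2 * b := by
  rw [mul10, mul10, mul11, inv00, inv10]
  simp only [uS00, uS01, uS10, uS11]
  ring

theorem mem_B_of_conj {x : SL2 F} {b : F} (hb : b ≠ 0) (h : mk x * u b * (mk x)⁻¹ ∈ B F) : mk x ∈ B F := by
  rw [← mk_inv, ← mk_mul, ← mk_mul, mem_B, conj_u] at h
  rw [mem_B]
  have h1 : (x 1 0) ^ 2 * b = 0 := by linear_combination -h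
  rcases mul_eq_zero.1 h1 with h2 | h2
  · exact pow_eq_zero_iff (two_ne_zero) |>.1 h2
  · exact absurd h2 hb

theorem U_le_B : U F ≤ B F := by
  intro g hg
  obtain ⟨b, rfl⟩ := mem_U.1 hg
  exact mem_B.2 rfl

theorem normalizer_U : Subgroup.normalizer (U F : Set (PSL2 F)) = B F := by
  have key : ∀ x : SL2 F, x 1 0 = 0 → ∀ b : F, mk x * u b * (mk x)⁻¹ = u ((x 0 0) ^ 2 * b) := by
    intro x hx b
    rw [← mk_inv, ← mk_mul, ← mk_mul]
    congr 1
    have hd := det2 x
    rw [hx, mul_zero, sub_zero] at hd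
    apply ext2
    · rw [mul00, mul00, mul01, inv00, inv10, hx]
      simp only [uS00, uS01, uS10, uS11]
      linear_combination hd
    · rw [mul01, mul00, mul01, inv01, inv11]
      simp only [uS00, uS01, uS10, uS11]
      ring
    · rw [mul10, mul10, mul11, inv00, inv10, hx]
      simp only [uS00, uS01, uS10, uS11]
      ring
    · rw [mul11, mul10, mul11, inv01, inv11, hx]
      simp only [uS00, uS01, uS10, uS11]
      linear_combination hd
  apply le_antisymm
  · intro g hg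
    obtain ⟨x, rfl⟩ := mk_surj g
    rw [Subgroup.mem_normalizer_iff] at hg
    exact mem_B_of_conj one_ne_zero (U_le_B ((hg (u 1)).1 (mem_U.2 ⟨1, rfl⟩)))
  · intro g hg
    obtain ⟨x, rfl⟩ := mk_surj g
    rw [mem_B] at hg
    have hd := det2 x
    rw [hg, mul_zero, sub_zero] at hd
    have h0 : x 0 0 ≠ 0 := fun e => by rw [e, zero_mul] at hd; exact zero_ne_one hd
    rw [Subgroup.mem_normalizer_iff]
    intro v
    constructor
    · intro hv
      obtain ⟨b, rfl⟩ := mem_U.1 hv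
      exact mem_U.2 ⟨_, (key x hg b).symm⟩
    · intro hv
      obtain ⟨b, hb⟩ := mem_U.1 hv
      refine mem_U.2 ⟨b / (x 0 0) ^ 2, ?_⟩
      have h1 := key x hg (b / (x 0 0) ^ 2)
      rw [mul_div_cancel₀ _ (pow_ne_zero 2 h0), hb] at h1
      exact mul_left_cancel (mul_right_cancel h1)

theorem conj_t (a : Fˣ) (b : F) : t a * u b * (t a)⁻¹ = u ((a : F) ^ 2 * b) := by
  rw [← mk_inv, ← mk_mul, ← mk_mul]
  congr 1
  have ha : (a : F) * ((a⁻¹ : Fˣ) : F) = 1 := Units.mul_inv a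
  apply ext2
  · rw [mul00, mul00, mul01, inv00, inv10]
    simp
  · rw [mul01, mul00, mul01, inv01, inv11]
    simp
    ring
  · rw [mul10, mul10, mul11, inv00, inv10]
    simp
  · rw [mul11, mul10, mul11, inv01, inv11]
    simp

theorem isPGroup_U (p : ℕ) [Fact p.Prime] [CharP F p] : IsPGroup p (U F) := by
  intro g
  refine ⟨1, ?_⟩
  obtain ⟨b, hb⟩ := mem_U.1 g.2
  apply Subtype.ext
  change (g : PSL2 F) ^ p ^ 1 = 1
  rw [pow_one, ← hb]
  have h1 : (uH F) (Multiplicative.ofAdd b ^ p) = (u b) ^ p := map_pow _ _ _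
  rw [← h1, ← ofAdd_nsmul, nsmul_eq_mul, CharP.cast_eq_zero, zero_mul]
  exact map_one _

/-- a `p`-element of `B` is in `U` -/
theorem mem_U_of_pow (p : ℕ) [Fact p.Prime] [CharP F p] {g : PSL2 F} (hg : g ∈ B F) {k : ℕ} (hk : g ^ p ^ k = 1) :
    g ∈ U F := by
  obtain ⟨x, rfl⟩ := mk_surj g
  rw [mem_B] at hg
  have hpow : ∀ n : ℕ, (x ^ n) 1 0 = 0 ∧ (x ^ n) 0 0 = (x 0 0) ^ n := by
    intro n
    induction n with
    | zero => rw [pow_zero, pow_zero]; exact ⟨one10, one00⟩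
    | succ n ih =>
      rw [pow_succ, mul10, mul00, ih.1, ih.2, hg]
      exact ⟨by ring, by ring⟩
  have h1 : mk (x ^ p ^ k) = 1 := hk
  have h2 : (x 0 0) ^ p ^ k = 1 ∨ (x 0 0) ^ p ^ k = -1 := by
    rw [← (hpow _).2]
    rcases mk_eq_one.1 h1 with h | h
    · left; rw [h]; exact one00
    · right; rw [h, neg_ij, one00]
  have h3 : ((x 0 0) ^ 2 - 1) ^ p ^ k = 0 := by
    rw [sub_pow_char_pow, one_pow, ← pow_mul, mul_comm 2, pow_mul]
    rcases h2 with h | h <;> rw [h] <;> ring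
  have h4 : (x 0 0 - 1) * (x 0 0 + 1) = 0 := by
    have := pow_eq_zero_iff (pow_ne_zero k (Fact.out : p.Prime).ne_zero) |>.1 h3
    linear_combination this
  have hd := det2 x
  rw [hg, mul_zero, sub_zero] at hd
  rcases mul_eq_zero.1 h4 with h | h
  · have h5 : x 0 0 = 1 := sub_eq_zero.1 h
    refine mem_U.2 ⟨x 0 1, congrArg mk ?_⟩
    apply ext2
    · rw [uS00, h5]
    · rw [uS01]
    · rw [uS10, hg]
    · rw [uS11]
      rw [h5, one_mul] at hd
      exact hd.symm
  · have h5 : x 0 0 = -1 := by linear_combination h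
    refine mem_U.2 ⟨-(x 0 1), ?_⟩
    rw [← mk_neg x]
    refine congrArg mk ?_
    apply ext2
    · rw [uS00, neg_ij, h5, neg_neg]
    · rw [uS01, neg_ij]
    · rw [uS10, neg_ij, hg, neg_zero]
    · rw [uS11, neg_ij]
      rw [h5] at hd
      linear_combination -hd

theorem tr {g : PSL2 F} (hg : g ∉ B F) : ∃ v ∈ U F, ∃ b ∈ B F, g = v * wP F * b := by
  obtain ⟨x, rfl⟩ := mk_surj g
  rw [mem_B] at hg
  have hd := det2 x
  let b : SL2 F := ⟨!![-(x 1 0), -(x 1 1); 0, -(x 1 0)⁻¹], by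
    rw [det_fin_two_of]
    field_simp
    ring⟩
  refine ⟨u (x 0 0 / x 1 0), mem_U.2 ⟨_, rfl⟩, mk b, mem_B.2 rfl, ?_⟩
  rw [← mk_mul, ← mk_mul]
  congr 1
  have b00 : b 0 0 = -(x 1 0) := rfl
  have b01 : b 0 1 = -(x 1 1) := rfl
  have b10 : b 1 0 = 0 := rfl
  have b11 : b 1 1 = -(x 1 0)⁻¹ := rfl
  apply ext2
  · rw [mul00, mul00, mul01, b00, b10]
    simp only [uS00, uS01, w00, w01, w10, w11]
    field_simp
    ring
  · rw [mul01, mul00, mul01, b01, b11]
    simp only [uS00, uS01, w00, w01, w10, w11]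
    field_simp
    linear_combination -(x 1 0) * hd
  · rw [mul10, mul10, mul11, b00, b10]
    simp only [uS10, uS11, w00, w01, w10, w11]
    ring
  · rw [mul11, mul10, mul11, b01, b11]
    simp only [uS10, uS11, w00, w01, w10, w11]
    ring

/-- **the rank one data** -/
def data (F : Type*) [Field F] [Finite F] (p : ℕ) [Fact p.Prime] [CharP F p] : R1 p (PSL2 F) where
  U := U F
  B := B F
  w := wP F
  nU := normalizer_U
  pU := isPGroup_U p
  mU := by
    intro S hUS hS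
    by_contra hne
    have : Finite (PSL2 F) := inferInstance
    obtain ⟨y, hyS, hyU, hn⟩ := exists_norm_lt (Fact.out : p.Prime) hS hUS hne
    apply hyU
    obtain ⟨k, hk⟩ := hS ⟨y, hyS⟩
    refine mem_U_of_pow p ?_ (k := k) (Subtype.ext_iff.1 hk)
    obtain ⟨x, rfl⟩ := mk_surj y
    exact mem_B_of_conj one_ne_zero (U_le_B (hn (u 1) (mem_U.2 ⟨1, rfl⟩)))
  wB := by
    rw [mem_B, w10]
    exact neg_ne_zero.2 one_ne_zero
  ww := by
    rw [wP_sq]
    exact one_mem _
  tr := fun g hg => tr hg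
  ti := by
    rw [Subgroup.eq_bot_iff_forall]
    rintro g ⟨h1, h2⟩
    obtain ⟨b, rfl⟩ := mem_U.1 h1
    have h3 : b = 0 := mem_cjw.1 h2
    rw [h3]
    exact u_zero

end Cfsg.Agent.H375.EPR.LTwo
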